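import Cfsg.Agent.BaseTwo.Main
import Cfsg.Agent.Coprime.Generation
import Cfsg.Agent.PGroup.Frattini

/-!
# Two points with trivial common stabiliser for solvable coprime actions
-/

set_option autoImplicit false
set_option linter.style.haveILetI false
set_option linter.unusedSectionVars false

open scoped commutatorElement
open Subgroup

namespace Cfsg.Agent.BaseTwo

variable {G : Type*} [Group G] [Finite G]

/-- A solvable group acting faithfully and coprimely on a `p`-group. -/
theorem exists_pair_pgroup {p : ℕ} [Fact p.Prime] {B P : Subgroup G} (hP : IsPGroup p P)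
    (hBP : B ≤ normalizer (P : Set G)) (hcop : (Nat.card B).Coprime (Nat.card P))
    (hB : Group.IsSolvable B) (hfaith : B ⊓ centralizer (P : Set G) = ⊥) :
    ∃ u ∈ P, ∃ z ∈ P, ∀ b ∈ B, b * u = u * b → b * z = z * b → b = 1 := by
  classical
  by_cases hP1 : P = ⊥
  · subst hP1
    refine ⟨1, one_mem _, 1, one_mem _, fun b hb _ _ => ?_⟩
    rw [← mem_bot, ← hfaith]
    exact ⟨hb, fun x hx => by rw [mem_bot.mp hx, one_mul, mul_one]⟩
  haveI : Nontrivial P := (nontrivial_iff_ne_bot P).mpr hP1
  have hpB : ¬ p ∣ Nat.card B := fun h => by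
    obtain ⟨n, hn⟩ := IsPGroup.iff_card.mp hP
    have : p ∣ Nat.card P := by
      rw [hn]
      refine dvd_pow_self p fun h0 => ?_
      rw [h0, pow_zero] at hn
      exact absurd hn (Finite.one_lt_card (α := P)).ne'
    exact (Fact.out : p.Prime).one_lt.ne' (Nat.eq_one_of_dvd_coprimes hcop h this)
  let conjP : B → MulAut P := fun b => normalizerMonoidHom P ⟨b, hBP b.2⟩
  have hconj : ∀ (b : B) (x : P), ((conjP b x : P) : G) = b * x * (b : G)⁻¹ := fun b x => rfl
  letI : CommGroup (P ⧸ frattini P) :=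
    { (inferInstance : Group (P ⧸ frattini P)) with
      mul_comm := fun a b => by
        induction a using QuotientGroup.induction_on with
        | _ a =>
        induction b using QuotientGroup.induction_on with
        | _ b =>
        refine QuotientGroup.eq.mpr ?_
        rw [show (a * b)⁻¹ * (b * a) = ⁅b⁻¹, a⁻¹⁆ by simp [commutatorElement_def, mul_assoc]]
        exact PGroup.commutatorElement_mem_frattini hP _ _ }
  have hmap : ∀ b : B, (frattini P).map (conjP b).toMonoidHom ≤ frattini P := fun b =>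
    Subgroup.characteristic_iff_map_le.mp frattini_characteristic _
  let act : B → (P ⧸ frattini P) →* (P ⧸ frattini P) := fun b =>
    QuotientGroup.map (frattini P) (frattini P) (conjP b).toMonoidHom fun x hx => hmap b ⟨x, hx, rfl⟩
  have hact : ∀ (b : B) (x : P), act b (x : P ⧸ frattini P) = (conjP b x : P) := fun _ _ => rfl
  have h1 : ∀ q, act 1 q = q := fun q => by
    induction q using QuotientGroup.induction_on with
    | _ x => rw [hact]; congr 1; exact Subtype.ext (by simp [hconj])
  have h2 : ∀ a b q, act (a * b) q = act a (act b q) := fun a b q => by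
    induction q using QuotientGroup.induction_on with
    | _ x =>
      rw [hact, hact, hact]; congr 1
      exact Subtype.ext (by simp [hconj, mul_assoc])
  letI : DistribMulAction B (Additive (P ⧸ frattini P)) :=
    { smul := fun b q => Additive.ofMul (act b q.toMul)
      one_smul := fun q => congrArg Additive.ofMul (h1 q.toMul)
      mul_smul := fun a b q => congrArg Additive.ofMul (h2 a b q.toMul)
      smul_zero := fun b => congrArg Additive.ofMul (map_one (act b))
      smul_add := fun b q r => congrArg Additive.ofMul (map_mul (act b) q.toMul r.toMul) }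
  have hsm : ∀ (b : B) (x : P), b • Additive.ofMul (x : P ⧸ frattini P) =
      Additive.ofMul ((conjP b x : P) : P ⧸ frattini P) := fun _ _ => rfl
  haveI : FaithfulSMul B (Additive (P ⧸ frattini P)) := by
    refine ⟨fun {a b} e => ?_⟩
    have hc : a⁻¹ * b = 1 := by
      refine Subtype.ext ?_
      show ((a⁻¹ * b : B) : G) = 1
      rw [← mem_bot, ← hfaith]
      refine ⟨(a⁻¹ * b).2, ?_⟩
      refine Coprime.le_centralizer_of_frattini (A := zpowers ((a⁻¹ * b : B) : G))
        ((zpowers_le.mpr (a⁻¹ * b).2).trans hBP) ?_ ?_ (mem_zpowers _)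
      · exact (hcop.coprime_dvd_left (card_dvd_of_le (zpowers_le.mpr (a⁻¹ * b).2))).coprime_dvd_right
          (card_subgroup_dvd_card _)
      · intro g hg k hk
        obtain ⟨i, rfl⟩ := mem_zpowers_iff.mp hg
        let d : B := (a⁻¹ * b) ^ i
        have hd : ((d : B) : G) = ((a⁻¹ * b : B) : G) ^ i := SubgroupClass.coe_zpow _ _
        have h0 : ∀ q : Additive (P ⧸ frattini P), (a⁻¹ * b) • q = q := fun q => by
          rw [mul_smul, ← e q, inv_smul_smul]
        have hfix : ∀ q : Additive (P ⧸ frattini P), d • q = q := fun q =>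
          MulAction.mem_stabilizer_iff.mp
            (Subgroup.zpow_mem _ (MulAction.mem_stabilizer_iff.mpr (h0 q)) i)
        have := hfix (Additive.ofMul ((⟨k, hk⟩ : P) : P ⧸ frattini P))
        rw [hsm] at this
        have hmem := QuotientGroup.eq.mp (Additive.ofMul.injective this.symm)
        refine ⟨_, hmem, ?_⟩
        simp only [Subgroup.coe_subtype, Subgroup.coe_mul, Subgroup.coe_inv, hconj, hd, mul_assoc]
    exact inv_mul_eq_one.mp hc
  obtain ⟨v, w, hvw⟩ := exists_pair (A := B) (V := Additive (P ⧸ frattini P)) hB (Fact.out : p.Prime)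
    (fun q => by
      obtain ⟨q, rfl⟩ := Additive.ofMul.surjective q
      induction q using QuotientGroup.induction_on with
      | _ x =>
        rw [← ofMul_pow, ← QuotientGroup.mk_pow, (QuotientGroup.eq_one_iff _).mpr
          (PGroup.pow_mem_frattini hP x), ofMul_one]) hpB
  obtain ⟨u, hu⟩ := QuotientGroup.mk_surjective v.toMul
  obtain ⟨z, hz⟩ := QuotientGroup.mk_surjective w.toMul
  refine ⟨u, u.2, z, z.2, fun b hb e1 e2 => ?_⟩
  have key : ∀ x : P, b * x = x * b → (⟨b, hb⟩ : B) • Additive.ofMul (x : P ⧸ frattini P) =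
      Additive.ofMul (x : P ⧸ frattini P) := fun x hx => by
    rw [hsm]; congr 2
    refine Subtype.ext ?_
    rw [hconj]
    show b * x * b⁻¹ = x
    rw [hx, mul_inv_cancel_right]
  have ku := key u e1
  rw [hu] at ku
  have kz := key z e2
  rw [hz] at kz
  exact congrArg Subtype.val (hvw ⟨b, hb⟩ ku kz)

/-- An element normalising `P` modulo which a point is fixed fixes it when the orders are coprime. -/
theorem eq_one_of_moved_in {b v q : G} (hq : b * v * b⁻¹ = q * v) (hbq : b * q = q * b)
    (hcop : (orderOf b).Coprime (orderOf q)) : q = 1 := by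
  have key : ∀ n : ℕ, b ^ n * v * (b ^ n)⁻¹ = q ^ n * v := by
    intro n
    induction n with
    | zero => simp
    | succ n ih =>
      calc b ^ (n + 1) * v * (b ^ (n + 1))⁻¹ = b * (b ^ n * v * (b ^ n)⁻¹) * b⁻¹ := by
            rw [pow_succ']; group
        _ = b * q ^ n * b⁻¹ * (b * v * b⁻¹) := by rw [ih]; group
        _ = q ^ (n + 1) * v := by
            rw [(Commute.pow_right hbq n).eq, mul_inv_cancel_right, hq, ← mul_assoc, ← pow_succ]
  have h := key (orderOf b)
  rw [pow_orderOf_eq_one, one_mul, inv_one, mul_one, eq_comm, mul_eq_right] at h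
  rw [← orderOf_eq_one_iff]
  exact Nat.eq_one_of_dvd_coprimes hcop (orderOf_dvd_of_pow_eq_one h) dvd_rfl

/-- **Two points with trivial common stabiliser.** -/
theorem exists_pair_coprime (K : Subgroup G) :
    ∀ (n : ℕ) (A : Subgroup G), Nat.card A = n → A ≤ normalizer (K : Set G) →
      (Nat.card A).Coprime (Nat.card K) → Group.IsSolvable A →
      A ⊓ centralizer (K : Set G) = ⊥ →
      ∃ x ∈ K, ∃ y ∈ K, ∀ a ∈ A, a * x = x * a → a * y = y * a → a = 1 := by
  intro n
  induction n using Nat.strong_induction_on with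
  | _ n ih =>
    intro A hn hAK hcop hsol hfaith
    classical
    by_cases hall : ∀ (p : ℕ) [Fact p.Prime] (P : Sylow p K),
        A ≤ normalizer ((P : Subgroup K).map K.subtype : Set G) →
        A ≤ centralizer ((P : Subgroup K).map K.subtype : Set G)
    · refine ⟨1, one_mem _, 1, one_mem _, fun a ha _ _ => ?_⟩
      rw [← mem_bot, ← hfaith]
      refine ⟨ha, ?_⟩
      let J : Subgroup G := K ⊓ centralizer (A : Set G)
      have hdvd : Nat.card K ∣ Nat.card J := by
        rw [← Nat.factorization_le_iff_dvd Nat.card_pos.ne' Nat.card_pos.ne']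
        intro q
        by_cases hq : q.Prime
        swap
        · rw [Nat.factorization_eq_zero_of_not_prime _ hq]; exact Nat.zero_le _
        haveI : Fact q.Prime := ⟨hq⟩
        obtain ⟨P, hP⟩ := Coprime.exists_invariant_sylow q hAK hcop (Or.inl hsol)
        have hPJ : (P : Subgroup K).map K.subtype ≤ J :=
          le_inf (map_subtype_le _) (le_centralizer_iff.mp (hall q P hP))
        have := card_dvd_of_le hPJ
        rw [Coprime.card_sylow_map P] at this
        exact (hq.pow_dvd_iff_le_factorization Nat.card_pos.ne').mp this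
      have hJ : J = K := eq_of_le_of_card_ge inf_le_left (Nat.le_of_dvd Nat.card_pos hdvd)
      exact le_centralizer_iff.mp (hJ.ge.trans inf_le_right) ha
    simp only [not_forall] at hall
    obtain ⟨p, hp, P₀, hPn, hPc⟩ := hall
    haveI := hp
    set P := (P₀ : Subgroup K).map K.subtype with hP
    have hPK : P ≤ K := map_subtype_le _
    have hPp : IsPGroup p P := P₀.2.map K.subtype
    let D := A ⊓ centralizer (P : Set G)
    have hDA : D ≤ A := inf_le_left
    have hDlt : Nat.card D < n := by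
      rw [← hn]
      refine lt_of_le_of_ne (card_le_of_le hDA) fun h => hPc ?_
      exact (eq_of_le_of_card_ge hDA h.ge).ge.trans inf_le_right
    obtain ⟨v, hv, w, hw, hvw⟩ := ih _ hDlt D rfl (hDA.trans hAK)
      (hcop.coprime_dvd_left (card_dvd_of_le hDA)) (Coprime.isSolvable_of_le hDA hsol)
      (le_bot_iff.mp (hfaith ▸ inf_le_inf_right _ hDA))
    -- the stabiliser of the two cosets
    have hconjP : ∀ a ∈ A, ∀ x ∈ P, a * x * a⁻¹ ∈ P := fun a ha x hx =>
      (mem_normalizer_iff.mp (hPn ha) x).mp hx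
    let B : Subgroup G :=
      { carrier := {a | a ∈ A ∧ a * v * a⁻¹ * v⁻¹ ∈ P ∧ a * w * a⁻¹ * w⁻¹ ∈ P}
        one_mem' := ⟨A.one_mem, by simp, by simp⟩
        mul_mem' := by
          rintro a b ⟨ha, ha1, ha2⟩ ⟨hb, hb1, hb2⟩
          refine ⟨A.mul_mem ha hb, ?_, ?_⟩
          · rw [show a * b * v * (a * b)⁻¹ * v⁻¹ =
              a * (b * v * b⁻¹ * v⁻¹) * a⁻¹ * (a * v * a⁻¹ * v⁻¹) by group]
            exact P.mul_mem (hconjP a ha _ hb1) ha1
          · rw [show a * b * w * (a * b)⁻¹ * w⁻¹ =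
              a * (b * w * b⁻¹ * w⁻¹) * a⁻¹ * (a * w * a⁻¹ * w⁻¹) by group]
            exact P.mul_mem (hconjP a ha _ hb2) ha2
        inv_mem' := by
          rintro a ⟨ha, ha1, ha2⟩
          refine ⟨A.inv_mem ha, ?_, ?_⟩
          · rw [show a⁻¹ * v * a⁻¹⁻¹ * v⁻¹ = a⁻¹ * (a * v * a⁻¹ * v⁻¹)⁻¹ * a⁻¹⁻¹ by group]
            exact hconjP _ (A.inv_mem ha) _ (P.inv_mem ha1)
          · rw [show a⁻¹ * w * a⁻¹⁻¹ * w⁻¹ = a⁻¹ * (a * w * a⁻¹ * w⁻¹)⁻¹ * a⁻¹⁻¹ by group]
            exact hconjP _ (A.inv_mem ha) _ (P.inv_mem ha2) }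
    have hBA : B ≤ A := fun a ha => ha.1
    have hcopB : (Nat.card B).Coprime (Nat.card P) :=
      (hcop.coprime_dvd_left (card_dvd_of_le hBA)).coprime_dvd_right (card_dvd_of_le hPK)
    have hBf : B ⊓ centralizer (P : Set G) = ⊥ := by
      refine (eq_bot_iff_forall _).mpr fun a ⟨⟨ha, ha1, ha2⟩, hac⟩ => ?_
      have fixed : ∀ g, a * g * a⁻¹ * g⁻¹ ∈ P → a * g = g * a := fun g hg => by
        have h1 : a * g * a⁻¹ * g⁻¹ = 1 := eq_one_of_moved_in (b := a) (v := g)
          (by group) (mem_centralizer_iff.mp hac _ hg).symm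
          ((hcop.coprime_dvd_left (Subgroup.orderOf_dvd_natCard _ ha)).coprime_dvd_right
            (Subgroup.orderOf_dvd_natCard _ (hPK hg)))
        rwa [mul_inv_eq_one, mul_inv_eq_iff_eq_mul] at h1
      exact hvw a ⟨ha, hac⟩ (fixed v ha1) (fixed w ha2)
    -- fixed representatives
    have rep : ∀ g ∈ K, (∀ b ∈ B, b * g * b⁻¹ * g⁻¹ ∈ P) →
        ∃ g' ∈ K, g' * g⁻¹ ∈ P ∧ ∀ b ∈ B, b * g' = g' * b := by
      intro g hg hgB
      obtain ⟨c, hc, hcP⟩ := Coprime.exists_fixed_of_invariant_coset (g := g⁻¹) (hBA.trans hPn) hcopB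
        (Or.inl (Coprime.isSolvable_of_le hBA hsol)) (fun b hb => by
          rw [show g⁻¹⁻¹ * b * g⁻¹ * b⁻¹ = (b * g * b⁻¹ * g⁻¹)⁻¹ by group]
          exact P.inv_mem (hgB b hb))
      rw [inv_inv] at hcP
      refine ⟨c⁻¹, ?_, ?_, fun b hb => ?_⟩
      · rw [show c⁻¹ = (g * c)⁻¹ * g by group]
        exact K.mul_mem (K.inv_mem (hPK hcP)) hg
      · rw [show c⁻¹ * g⁻¹ = (g * c)⁻¹ by group]
        exact P.inv_mem hcP
      · exact (Commute.inv_right (show Commute b c from mem_centralizer_iff.mp hc b hb)).eq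
    obtain ⟨v', hv', hv'P, hv'B⟩ := rep v hv fun b hb => hb.2.1
    obtain ⟨w', hw', hw'P, hw'B⟩ := rep w hw fun b hb => hb.2.2
    obtain ⟨u, hu, z, hz, huz⟩ := exists_pair_pgroup hPp (hBA.trans hPn) hcopB
      (Coprime.isSolvable_of_le hBA hsol) hBf
    refine ⟨u * v', K.mul_mem (hPK hu) hv', z * w', K.mul_mem (hPK hz) hw', fun a ha e1 e2 => ?_⟩
    -- an element fixing both fixes both cosets
    have inB : ∀ g g' q, q ∈ P → g' * g⁻¹ ∈ P → a * (q * g') = q * g' * a →
        a * g * a⁻¹ * g⁻¹ ∈ P := by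
      intro g g' q hq hg e
      have hqg : q * g' * g⁻¹ ∈ P := by rw [mul_assoc]; exact P.mul_mem hq hg
      rw [show a * g * a⁻¹ * g⁻¹ = a * (q * g' * g⁻¹)⁻¹ * a⁻¹ * (a * (q * g') * a⁻¹) * g⁻¹ by group,
        e, mul_inv_cancel_right, mul_assoc _ (q * g') g⁻¹]
      exact P.mul_mem (hconjP a ha _ (P.inv_mem hqg)) hqg
    have haB : a ∈ B := ⟨ha, inB v v' u hu hv'P e1, inB w w' z hz hw'P e2⟩
    refine huz a haB (mul_right_cancel (b := v') ?_) (mul_right_cancel (b := w') ?_)
    · rw [mul_assoc a u v', e1, mul_assoc, mul_assoc u a v', hv'B a haB]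
    · rw [mul_assoc a z w', e2, mul_assoc, mul_assoc z a w', hw'B a haB]

end Cfsg.Agent.BaseTwo
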