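import Cfsg.Agent.BaseTwo.Coprime
import Cfsg.Agent.Cores.Pi

/-!
# Three conjugates of a Hall subgroup meeting in the core
-/

set_option autoImplicit false
set_option linter.style.haveILetI false
set_option linter.unusedSectionVars false

open Subgroup

namespace Cfsg.Agent.BaseTwo

variable {G : Type*} [Group G] [Finite G] {π : Set ℕ}

/-- A series with `π'` or prime-power factors. -/
def PiSeries (π : Set ℕ) (G : Type*) [Group G] : Prop :=
  ∃ (n : ℕ) (N : Fin (n + 1) → Subgroup G), N 0 = ⊥ ∧ N (Fin.last n) = ⊤ ∧ Monotone N ∧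
    (∀ i, (N i).Normal) ∧
      ∀ i : Fin n, (∃ p ∈ π, p.Prime ∧ ∃ k : ℕ, (N i.castSucc).relIndex (N i.succ) = p ^ k) ∨
        (∀ q : ℕ, q.Prime → q ∣ (N i.castSucc).relIndex (N i.succ) → q ∉ π)

theorem piSeries_quotient (h : PiSeries π G) (M : Subgroup G) [M.Normal] :
    PiSeries π (G ⧸ M) := by
  obtain ⟨n, N, h0, h1, hm, hn, hstep⟩ := h
  have hs := QuotientGroup.mk'_surjective M
  refine ⟨n, fun i => (N i).map (QuotientGroup.mk' M), by simp [h0], ?_,
    fun i j hij => Subgroup.map_mono (hm hij), fun i => (hn i).map _ hs, fun i => ?_⟩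
  · simp only [h1]; exact Subgroup.map_top_of_surjective _ hs
  have hd : ((N i.castSucc).map (QuotientGroup.mk' M)).relIndex
      ((N i.succ).map (QuotientGroup.mk' M)) ∣ (N i.castSucc).relIndex (N i.succ) := by
    haveI := hn i.castSucc
    have hle : N i.castSucc ≤ N i.succ := hm (le_of_lt Fin.castSucc_lt_succ)
    rw [relIndex_map_map, QuotientGroup.ker_mk']
    have e : N i.succ ⊔ M = N i.succ ⊔ (N i.castSucc ⊔ M) := by
      rw [← sup_assoc, sup_eq_left.mpr hle]
    rw [e, relIndex_sup_right]
    exact relIndex_dvd_of_le_left _ le_sup_left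
  rcases hstep i with ⟨p, hp, hpp, k, hk⟩ | h'
  · rw [hk] at hd
    obtain ⟨j, -, hj⟩ := (Nat.dvd_prime_pow hpp).mp hd
    exact Or.inl ⟨p, hp, hpp, j, hj⟩
  · exact Or.inr fun q hq hqd => h' q hq (hqd.trans hd)

/-- A `π`-subgroup is solvable. -/
theorem isSolvable_of_piSeries (h : PiSeries π G) (H : Subgroup G)
    (hH : ∀ p : ℕ, p.Prime → p ∣ Nat.card H → p ∈ π) : Group.IsSolvable H := by
  classical
  obtain ⟨n, N, h0, h1, hm, hn, hstep⟩ := h
  have key : ∀ i : Fin (n + 1), Group.IsSolvable ↥(H ⊓ N i) := by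
    intro i
    induction i using Fin.induction with
    | zero =>
      refine Group.isSolvable_of_comm fun a b => Subtype.ext ?_
      have ha : (a : G) ∈ N 0 := a.2.2
      have hb : (b : G) ∈ N 0 := b.2.2
      have ha' : (a : G) = 1 := mem_bot.mp ((SetLike.ext_iff.mp h0 _).mp ha)
      have hb' : (b : G) = 1 := mem_bot.mp ((SetLike.ext_iff.mp h0 _).mp hb)
      simp [ha', hb']
    | succ i ih =>
      haveI := ih
      haveI := hn i.castSucc
      let f : ↥(H ⊓ N i.succ) →* G ⧸ N i.castSucc :=
        (QuotientGroup.mk' (N i.castSucc)).comp (H ⊓ N i.succ).subtype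
      have hd : Nat.card f.range ∣ (N i.castSucc).relIndex (N i.succ) := by
        have : f.range = (H ⊓ N i.succ).map (QuotientGroup.mk' (N i.castSucc)) := by
          rw [MonoidHom.range_eq_map, ← Subgroup.map_map, ← MonoidHom.range_eq_map, range_subtype]
        have e := relIndex_ker (K := N i.succ) (QuotientGroup.mk' (N i.castSucc))
        rw [QuotientGroup.ker_mk'] at e
        rw [this, e]
        exact Subgroup.card_dvd_of_le (Subgroup.map_mono inf_le_right)
      haveI : Group.IsSolvable f.range := by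
        rcases hstep i with ⟨p, -, hpp, k, hk⟩ | h'
        · haveI : Fact p.Prime := ⟨hpp⟩
          rw [hk] at hd
          obtain ⟨j, -, hj⟩ := (Nat.dvd_prime_pow hpp).mp hd
          haveI : Group.IsNilpotent f.range := (IsPGroup.of_card hj).isNilpotent
          infer_instance
        · have hone : Nat.card f.range = 1 := by
            by_contra hne
            obtain ⟨q, hq, hqd⟩ := Nat.exists_prime_and_dvd hne
            exact h' q hq (hqd.trans hd) (hH q hq (hqd.trans ((Subgroup.card_range_dvd f).trans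
              (Subgroup.card_dvd_of_le inf_le_left))))
          haveI : Subsingleton f.range := (Nat.card_eq_one_iff_unique.mp hone).1
          exact Group.isSolvable_of_comm fun a b => Subsingleton.elim _ _
      let ι : ↥(H ⊓ N i.castSucc) →* ↥(H ⊓ N i.succ) :=
        Subgroup.inclusion (inf_le_inf_left _ (hm (le_of_lt Fin.castSucc_lt_succ)))
      refine Group.isSolvable_of_ker_le_range ι f.rangeRestrict fun x hx => ?_
      rw [MonoidHom.ker_rangeRestrict, MonoidHom.mem_ker] at hx
      exact ⟨⟨x, x.2.1, (QuotientGroup.eq_one_iff _).mp hx⟩, rfl⟩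
  have := key (Fin.last n)
  rw [h1, inf_top_eq] at this
  exact this

/-- The centraliser of `O_π'` when `O_π` is trivial. -/
theorem centralizer_le_core (h : PiSeries π G) (hO : Cfsg.piCore π G = ⊥) :
    centralizer (Cfsg.piCore πᶜ G : Set G) ≤ Cfsg.piCore πᶜ G := by
  classical
  obtain ⟨n, N, h0, h1, hm, hn, hstep⟩ := h
  set K := Cfsg.piCore πᶜ G with hK
  have hKπ : ∀ q : ℕ, q.Prime → q ∣ Nat.card K → q ∉ π := fun q hq hd =>
    Cores.piCore_isPiNat (π := πᶜ) (G := G) q hq hd
  set C := centralizer (K : Set G) with hC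
  suffices key : ∀ i : Fin (n + 1), C ⊓ N i ≤ K by
    have := key (Fin.last n)
    rwa [h1, inf_top_eq] at this
  intro i
  induction i using Fin.induction with
  | zero => rw [h0, inf_bot_eq]; exact bot_le
  | succ i ih =>
    haveI := hn i.castSucc
    haveI := hn i.succ
    haveI : C.Normal := Subgroup.normal_centralizer
    set D := C ⊓ N i.succ with hD
    haveI : D.Normal := Subgroup.normal_inf_normal _ _
    -- the index of `K` in `D` divides the factor
    have hidx : K.relIndex D ∣ (N i.castSucc).relIndex (N i.succ) := by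
      have e1 : K.relIndex D ∣ (N i.castSucc).relIndex D := by
        rw [← inf_relIndex_right (N i.castSucc)]
        refine relIndex_dvd_of_le_left _ (le_trans ?_ ih)
        exact le_inf (inf_le_right.trans inf_le_left) inf_le_left
      refine e1.trans ?_
      have e := fun L : Subgroup G => relIndex_ker (K := L) (QuotientGroup.mk' (N i.castSucc))
      simp only [QuotientGroup.ker_mk'] at e
      rw [e, e]
      exact Subgroup.card_dvd_of_le (Subgroup.map_mono inf_le_right)
    rcases hstep i with ⟨p, hp, hpp, k, hk⟩ | h'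
    swap
    · refine Cores.le_piCore inferInstance fun q hq hqd => ?_
      rw [← (K.subgroupOf D).card_mul_index, hq.dvd_mul] at hqd
      rcases hqd with hqd | hqd
      · exact hKπ q hq (hqd.trans (Subgroup.card_comap_dvd_of_injective _ _ D.subtype_injective))
      · exact h' q hq (hqd.trans hidx)
    · haveI : Fact p.Prime := ⟨hpp⟩
      obtain ⟨P⟩ : Nonempty (Sylow p D) := inferInstance
      have hidx' : ∃ j, (K.subgroupOf D).index = p ^ j := by
        rw [hk] at hidx
        obtain ⟨j, -, hj⟩ := (Nat.dvd_prime_pow hpp).mp hidx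
        exact ⟨j, hj⟩
      have hpK : ¬ p ∣ Nat.card (K.subgroupOf D) := fun h =>
        hKπ p hpp (h.trans (Subgroup.card_comap_dvd_of_injective _ _ D.subtype_injective)) hp
      have htop : (P : Subgroup D) ⊔ K.subgroupOf D = ⊤ := by
        refine eq_top_of_card_eq _ (le_antisymm (card_le_card_group _) (Nat.le_of_dvd Nat.card_pos ?_))
        have hc : (Nat.card (P : Subgroup D)).Coprime (Nat.card (K.subgroupOf D)) := by
          rw [P.card_eq_multiplicity]
          exact Nat.Coprime.pow_left _ (hpp.coprime_iff_not_dvd.mpr hpK)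
        obtain ⟨j, hj⟩ := hidx'
        have hdvd : (K.subgroupOf D).index ∣ Nat.card (P : Subgroup D) := by
          rw [hj, P.card_eq_multiplicity]
          refine Nat.pow_dvd_pow _ ((hpp.pow_dvd_iff_le_factorization Nat.card_pos.ne').mp ?_)
          rw [← hj]
          exact index_dvd_card _
        refine dvd_trans ?_ (Nat.Coprime.mul_dvd_of_dvd_of_dvd hc
          (Subgroup.card_dvd_of_le le_sup_left) (Subgroup.card_dvd_of_le le_sup_right))
        rw [← (K.subgroupOf D).card_mul_index, mul_comm (Nat.card (P : Subgroup D))]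
        exact mul_dvd_mul_left _ hdvd
      haveI : (P : Subgroup D).Normal := by
        rw [← normalizer_eq_top_iff, eq_top_iff, ← htop]
        refine sup_le le_normalizer (le_trans ?_ (centralizer_le_normalizer _))
        intro z hz x _
        exact Subtype.ext ((mem_centralizer_iff.mp x.2.1 z hz).symm)
      haveI : (P : Subgroup D).Characteristic := Sylow.characteristic_of_normal P ‹_›
      have hPbot : (P : Subgroup D) = ⊥ := by
        rw [← Subgroup.map_eq_bot_iff_of_injective _ D.subtype_injective, eq_bot_iff, ← hO]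
        refine Cores.le_piCore (ConjAct.normal_of_characteristic_of_normal) fun q hq hqd => ?_
        have hd := hqd.trans (Subgroup.card_map_dvd _ D.subtype)
        rw [P.card_eq_multiplicity] at hd
        rwa [(Nat.prime_dvd_prime_iff_eq hq hpp).mp (hq.dvd_of_dvd_pow hd)]
      rw [hPbot, bot_sup_eq, subgroupOf_eq_top] at htop
      exact htop

/-- The case of a trivial core. -/
theorem exists_meet_eq_bot (h : PiSeries π G) (hO : Cfsg.piCore π G = ⊥) (H : Subgroup G)
    (hH : ∀ p : ℕ, p.Prime → p ∣ Nat.card H → p ∈ π) :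
    ∃ x y : G, ∀ g ∈ H, x⁻¹ * g * x ∈ H → y⁻¹ * g * y ∈ H → g = 1 := by
  set K := Cfsg.piCore πᶜ G with hK
  have hcop : (Nat.card H).Coprime (Nat.card K) := Nat.coprime_of_dvd fun q hq h1 h2 =>
    Cores.piCore_isPiNat (π := πᶜ) (G := G) q hq h2 (hH q hq h1)
  have hHK : H ⊓ K = ⊥ := (Subgroup.disjoint_of_coprime_natCard hcop).eq_bot
  obtain ⟨x, hx, y, hy, hxy⟩ := exists_pair_coprime K _ H rfl
    (fun g _ => by rw [Subgroup.normalizer_eq_top K]; trivial) hcop (isSolvable_of_piSeries h H hH)
    (le_bot_iff.mp (hHK ▸ inf_le_inf_left H (centralizer_le_core h hO)))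
  have fix : ∀ g ∈ H, ∀ z ∈ K, z⁻¹ * g * z ∈ H → g * z = z * g := by
    intro g hg z hz hzg
    have : g⁻¹ * (z⁻¹ * g * z) ∈ H ⊓ K := by
      refine ⟨H.mul_mem (H.inv_mem hg) hzg, ?_⟩
      have hnor : K.Normal := inferInstance
      have := K.mul_mem (hnor.conj_mem _ (K.inv_mem hz) g⁻¹) hz
      simpa [mul_assoc] using this
    rw [hHK, mem_bot, inv_mul_eq_one] at this
    conv_rhs => rw [this]
    group
  exact ⟨x, y, fun g hg h1 h2 => hxy g hg (fix g hg x hx h1) (fix g hg y hy h2)⟩

/-- **Three conjugates of a Hall subgroup.** -/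
theorem exists_meet_eq_core (h : PiSeries π G) (H : Subgroup G) (hH : Cfsg.IsPiHall π H) :
    ∃ x y : G, ∀ g : G, (g ∈ H ∧ x⁻¹ * g * x ∈ H ∧ y⁻¹ * g * y ∈ H) ↔ g ∈ Cfsg.piCore π G := by
  set O := Cfsg.piCore π G with hO
  have hOπ : ∀ q : ℕ, q.Prime → q ∣ Nat.card O → q ∈ π := Cores.piCore_isPiNat
  have hOH : O ≤ H := by
    have hd : Nat.card (O ⊔ H : Subgroup G) ∣ Nat.card O * Nat.card H := by
      have e := (O.subgroupOf (O ⊔ H)).card_mul_index
      rw [Nat.card_congr (Subgroup.subgroupOfEquivOfLe (le_sup_left : O ≤ O ⊔ H)).toEquiv] at e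
      rw [← e]
      refine mul_dvd_mul_left _ ?_
      show O.relIndex (O ⊔ H) ∣ _
      rw [relIndex_sup_left]
      exact relIndex_dvd_card _ _
    have h1 : H.relIndex (O ⊔ H) = 1 := by
      by_contra hne
      obtain ⟨q, hq, hqd⟩ := Nat.exists_prime_and_dvd hne
      refine hH.2 q hq ?_ (hqd.trans (relIndex_dvd_index_of_le le_sup_right))
      exact ((hq.dvd_mul.mp ((hqd.trans (relIndex_dvd_card _ _)).trans hd))).elim (hOπ q hq) (hH.1 q hq)
    exact le_trans le_sup_left (relIndex_eq_one.mp h1)
  obtain ⟨x', y', hxy⟩ := exists_meet_eq_bot (piSeries_quotient h O)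
    Cores.piCore_quotient_piCore_eq_bot (H.map (QuotientGroup.mk' O))
    (fun q hq hd => hH.1 q hq (hd.trans (Subgroup.card_map_dvd _ _)))
  obtain ⟨x, rfl⟩ := QuotientGroup.mk_surjective x'
  obtain ⟨y, rfl⟩ := QuotientGroup.mk_surjective y'
  refine ⟨x, y, fun g => ⟨fun ⟨h1, h2, h3⟩ => ?_, fun hg => ?_⟩⟩
  · rw [← QuotientGroup.eq_one_iff]
    exact hxy _ ⟨g, h1, rfl⟩ ⟨_, h2, rfl⟩ ⟨_, h3, rfl⟩
  · have hn : O.Normal := inferInstance
    refine ⟨hOH hg, hOH ?_, hOH ?_⟩
    · simpa using hn.conj_mem g hg x⁻¹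
    · simpa using hn.conj_mem g hg y⁻¹

end Cfsg.Agent.BaseTwo
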